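import Cfsg.Agent.H47.JTransfer.Tools

/-!
Degree of the action of an abelian subgroup of largest order on a class two subgroup `C` of the
`p`-core: either it is quadratic on the centre `Z` and `[C, A; 5] = 1`, or it is cubic on the chief
factors inside `Z` and `[C, A; 4] ≤ Z`.
-/

set_option autoImplicit false

namespace Cfsg.Agent.H47.JTransfer

open scoped commutatorElement
open Subgroup
open Cfsg.Agent.H72 (IsMaxAb)

universe u

variable {G : Type u} [Group G] [Finite G]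

/-- The data: a class two normal subgroup `C` below `Q`, and a chosen abelian subgroup `A` of
largest order of `T` outside `Q`. -/
structure Frame (T Q C Z A : Subgroup G) : Prop where
  /-- `Q` is normal -/
  qn : Q.Normal
  /-- `C` is normal -/
  cn : C.Normal
  /-- `Z` is normal -/
  zn : Z.Normal
  /-- `Q` is in `T` -/
  qT : Q ≤ T
  /-- `C` is in `Q` -/
  cQ : C ≤ Q
  /-- `Z` is in `C` -/
  zC : Z ≤ C
  /-- `Z` is central in `C` -/
  cent : ∀ z ∈ Z, ∀ c ∈ C, Commute z c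
  /-- `[C, Q] ≤ Z` -/
  comm : ⁅C, Q⁆ ≤ Z
  /-- `A` is abelian of largest order -/
  maxA : IsMaxAb T A
  /-- `A` is not in `Q` -/
  notQ : ¬ A ≤ Q
  /-- first choice -/
  max1 : ∀ A', IsMaxAb T A' → ¬ A' ≤ Q →
    Nat.card (A' ⊓ Z : Subgroup G) ≤ Nat.card (A ⊓ Z : Subgroup G)
  /-- second choice -/
  max2 : ∀ A', IsMaxAb T A' → ¬ A' ≤ Q →
    Nat.card (A' ⊓ Z : Subgroup G) = Nat.card (A ⊓ Z : Subgroup G) →
    Nat.card (A' ⊓ C : Subgroup G) ≤ Nat.card (A ⊓ C : Subgroup G)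

namespace Frame

variable {T Q C Z A : Subgroup G} (F : Frame T Q C Z A)

include F

theorem zT : Z ≤ T := (F.zC.trans F.cQ).trans F.qT

theorem commA {a b : G} (ha : a ∈ A) (hb : b ∈ A) : Commute a b := F.maxA.2.1 a ha b hb

theorem commZ {u v : G} (hu : u ∈ Z) (hv : v ∈ Z) : Commute u v := F.cent u hu v (F.zC hv)

theorem zComm {v : G} (hv : v ∈ Z) (a : G) : ⁅v, a⁆ ∈ Z := by
  have := F.zn
  exact commutator_le_left Z ⊤ (commutator_mem_commutator hv (mem_top a))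

theorem cComm {v : G} (hv : v ∈ C) (a : G) : ⁅v, a⁆ ∈ C := by
  have := F.cn
  exact commutator_le_left C ⊤ (commutator_mem_commutator hv (mem_top a))

theorem cqZ {c r : G} (hc : c ∈ C) (hr : r ∈ Q) : ⁅c, r⁆ ∈ Z :=
  F.comm (commutator_mem_commutator hc hr)

theorem hom {u v : G} (hu : u ∈ Z) (hv : v ∈ Z) (a : G) : ⁅u * v, a⁆ = ⁅u, a⁆ * ⁅v, a⁆ := by
  rw [comm_mul_left, conj_of_commute (F.commZ hu (F.zComm hv a)),
    (F.commZ (F.zComm hv a) (F.zComm hu a)).eq]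

theorem homInv {u : G} (hu : u ∈ Z) (a : G) : ⁅u⁻¹, a⁆ = ⁅u, a⁆⁻¹ := by
  refine eq_inv_of_mul_eq_one_left ?_
  rw [← F.hom (Z.inv_mem hu) hu a, inv_mul_cancel, commutatorElement_one_left]

theorem swap {v a b : G} (hv : v ∈ Z) (ha : a ∈ A) (hb : b ∈ A) :
    ⁅⁅v, a⁆, b⁆ = ⁅⁅v, b⁆, a⁆ := by
  have h : ⁅v, a * b⁆ = ⁅v, b * a⁆ := by rw [(F.commA ha hb).eq]
  rw [comm_mul_right, comm_mul_right, conj_eq, conj_eq, ← commutatorElement_inv ⁅v, b⁆ a,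
    ← commutatorElement_inv ⁅v, a⁆ b] at h
  have hxa := F.zComm hv a
  have hxb := F.zComm hv b
  rw [(F.commZ (Z.inv_mem (F.zComm hxb a)) hxb).eq, (F.commZ (Z.inv_mem (F.zComm hxa b)) hxa).eq,
    ← mul_assoc, ← mul_assoc, (F.commZ hxa hxb).eq] at h
  exact (inv_injective (mul_left_cancel h)).symm

theorem fixed {d a : G} (hd : d ∈ A) (ha : a ∈ A) : ⁅d, a⁆ = 1 := comm_eq_one (F.commA hd ha)

theorem mem_of_fixed {v : G} (hv : v ∈ T) (h : ∀ a ∈ A, ⁅v, a⁆ = 1) : v ∈ A :=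
  mem_of_commute F.maxA hv fun a ha => commutatorElement_eq_one_iff_commute.1 (h a ha)

theorem conjA {v a : G} (hv : v ∈ A) (ha : a ∈ A) : a * v * a⁻¹ = v := conj_of_commute (F.commA ha hv)

/-- The subgroup generated by `[v, A]` and `A ∩ Z`. -/
theorem orbit_mem {v : G} (hv : v ∈ Z) {s : G}
    (hs : s ∈ closure ((fun a => ⁅v, a⁆) '' (A : Set G)) ⊔ (A ⊓ Z)) : s ∈ Z := by
  refine sup_le ((closure_le _).2 ?_) inf_le_right hs
  rintro _ ⟨a, -, rfl⟩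
  exact F.zComm hv a

/-- The replacement by `[v, A]`. -/
theorem orbit {v : G} (hv : v ∈ Z) :
    IsMaxAb T (closure ((fun a => ⁅v, a⁆) '' (A : Set G)) ⊔ (A ⊓ Z) ⊔
        (A ⊓ centralizer ((closure ((fun a => ⁅v, a⁆) '' (A : Set G)) ⊔ (A ⊓ Z) : Subgroup G) : Set G))) ∧
      ∀ s ∈ closure ((fun a => ⁅v, a⁆) '' (A : Set G)) ⊔ (A ⊓ Z),
        ∃ a ∈ A, ⁅v, a⁆⁻¹ * s ∈ A ⊓ Z := by
  set S := closure ((fun a => ⁅v, a⁆) '' (A : Set G)) ⊔ (A ⊓ Z) with hS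
  have hSZ : ∀ s ∈ S, s ∈ Z := fun s hs => F.orbit_mem hv hs
  have hf : ∀ a ∈ A, ⁅v, a⁆ ∈ S := fun a ha =>
    le_sup_left (b := A ⊓ Z) (subset_closure ⟨a, ha, rfl⟩)
  obtain ⟨h1, h2⟩ := replacement F.maxA (fun s hs => F.zT (hSZ s hs))
    (fun a ha b hb => F.commZ (hSZ a ha) (hSZ b hb)) (fun a => ⁅v, a⁆) hf
    (fun a ha a' ha' h => by
      set x := a⁻¹ * a' with hx
      have hxA : x ∈ A := A.mul_mem (A.inv_mem ha) ha'
      have e : a' = a * x := by rw [hx, mul_inv_cancel_left]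
      simp only [e, comm_mul_right, inv_mul_cancel_left] at h
      have hvx : ⁅v, x⁆ ∈ A := by
        have := F.conjA h (A.inv_mem ha)
        have e2 : a⁻¹ * (a * ⁅v, x⁆ * a⁻¹) * a⁻¹⁻¹ = ⁅v, x⁆ := by group
        rw [e2] at this
        rw [this]; exact h
      intro s hs
      refine commute_sup (A := closure ((fun a => ⁅v, a⁆) '' (A : Set G))) (B := A ⊓ Z) (fun t ht => ?_)
        (fun d hd => F.commA hxA hd.1) hs
      induction ht using closure_induction with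
      | mem t ht =>
        obtain ⟨b, hb, rfl⟩ := ht
        refine (commutatorElement_eq_one_iff_commute.1 ?_).symm
        rw [F.swap hv hb hxA, F.fixed hvx hb]
      | one => exact Commute.one_right x
      | mul _ _ _ _ h1 h2 => exact h1.mul_right h2
      | inv _ _ h => exact h.inv_right)
  refine ⟨h1, fun s hs => ?_⟩
  obtain ⟨a, ha, hb⟩ := h2 s hs
  exact ⟨a, ha, hb.1, Z.mul_mem (Z.inv_mem (F.zComm hv a)) (hSZ s hs)⟩

/-- A subgroup of `Z` on which some `x` acts as the product `y, z`, with equality in the bound. -/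
def Good (A Z : Subgroup G) (y z : G) (N : Subgroup G) : Prop :=
  A ⊓ Z ≤ N ∧ N ≤ Z ∧
    Nat.card A * Nat.card (A ⊓ Z : Subgroup G) ≤
      Nat.card N * Nat.card (A ⊓ centralizer (N : Set G) : Subgroup G) ∧
    ∃ x ∈ A, ∀ m ∈ N, ⁅⁅m, y⁆, z⁆ = ⁅m, x⁆

theorem inf_cent {N : Subgroup G} (hN : N ≤ Z) (hDN : A ⊓ Z ≤ N) :
    N ⊓ (A ⊓ centralizer (N : Set G)) = A ⊓ Z := by
  refine le_antisymm (fun x hx => ⟨hx.2.1, hN hx.1⟩) fun x hx => ⟨hDN hx, hx.1, ?_⟩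
  exact mem_centralizer_iff.2 fun m hm => F.commZ (hN hm) hx.2

theorem card_bound {N : Subgroup G} (hN : N ≤ Z) (hDN : A ⊓ Z ≤ N) :
    Nat.card N * Nat.card (A ⊓ centralizer (N : Set G) : Subgroup G) ≤
      Nat.card A * Nat.card (A ⊓ Z : Subgroup G) := by
  have hc : ∀ a ∈ N, ∀ b ∈ A ⊓ centralizer (N : Set G), Commute a b := fun a ha b hb =>
    mem_centralizer_iff.1 hb.2 a ha
  rw [← card_sup_mul hc, F.inf_cent hN hDN]
  refine Nat.mul_le_mul_right _ (F.maxA.2.2 _ (sup_le (hN.trans F.zT) (inf_le_left.trans F.maxA.1)) ?_)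
  exact commute_sup_sup (fun a ha b hb => F.commZ (hN ha) (hN hb))
    (fun a ha b hb => F.commA ha.1 hb.1) hc

theorem good_orbit {v y z : G} (hv : v ∈ Z) (hy : y ∈ A) (hz : z ∈ A) :
    Good A Z y z (closure ((fun a => ⁅v, a⁆) '' (A : Set G)) ⊔ (A ⊓ Z)) := by
  obtain ⟨hmax, hsurj⟩ := F.orbit hv
  set S := closure ((fun a => ⁅v, a⁆) '' (A : Set G)) ⊔ (A ⊓ Z) with hS
  have hSZ : S ≤ Z := fun s hs => F.orbit_mem hv hs
  have hgen : ∀ a ∈ A, ⁅v, a⁆ ∈ S := fun a ha =>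
    le_sup_left (b := A ⊓ Z) (subset_closure ⟨a, ha, rfl⟩)
  refine ⟨le_sup_right, hSZ, ?_, ?_⟩
  · rw [← card_sup_mul (fun a ha b hb => mem_centralizer_iff.1 hb.2 a ha : ∀ a ∈ S,
      ∀ b ∈ A ⊓ centralizer (S : Set G), Commute a b), F.inf_cent hSZ le_sup_right]
    exact Nat.mul_le_mul_right _ (hmax.2.2 A F.maxA.1 fun a ha b hb => F.commA ha hb)
  · have hmem : ⁅⁅v, y⁆, z⁆ ∈ S := by
      have e : ⁅⁅v, y⁆, z⁆ = ⁅v, y⁆ * (⁅v, z⁆⁻¹ * ⁅v, z * y⁆)⁻¹ := by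
        simp [commutatorElement_def, mul_assoc]
      rw [e]
      exact S.mul_mem (hgen y hy)
        (S.inv_mem (S.mul_mem (S.inv_mem (hgen z hz)) (hgen _ (A.mul_mem hz hy))))
    obtain ⟨x, hx, hd⟩ := hsurj _ hmem
    set d := ⁅v, x⁆⁻¹ * ⁅⁅v, y⁆, z⁆ with hddef
    have e : ⁅⁅v, y⁆, z⁆ = ⁅v, x⁆ * d := by rw [hddef, mul_inv_cancel_left]
    have hgood : ∀ a ∈ A, ⁅⁅⁅v, a⁆, y⁆, z⁆ = ⁅⁅v, a⁆, x⁆ := by
      intro a ha
      rw [F.swap hv ha hy, F.swap (F.zComm hv y) ha hz, e, F.hom (F.zComm hv x) hd.2 a,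
        F.fixed hd.1 ha, mul_one, F.swap hv hx ha]
    refine ⟨x, hx, fun m hm => ?_⟩
    let K : Subgroup G :=
      { carrier := {m | m ∈ Z ∧ ⁅⁅m, y⁆, z⁆ = ⁅m, x⁆}
        one_mem' := ⟨Z.one_mem, by simp⟩
        mul_mem' := by
          rintro a b ⟨ha, ha'⟩ ⟨hb, hb'⟩
          refine ⟨Z.mul_mem ha hb, ?_⟩
          rw [F.hom ha hb, F.hom (F.zComm ha y) (F.zComm hb y), ha', hb', F.hom ha hb]
        inv_mem' := by
          rintro a ⟨ha, ha'⟩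
          refine ⟨Z.inv_mem ha, ?_⟩
          rw [F.homInv ha, F.homInv (F.zComm ha y), ha', F.homInv ha] }
    have hle : S ≤ K := by
      refine sup_le ((closure_le _).2 ?_) fun d hd => ?_
      · rintro _ ⟨a, ha, rfl⟩
        exact ⟨F.zComm hv a, hgood a ha⟩
      · exact ⟨hd.2, by rw [F.fixed hd.1 hy, commutatorElement_one_left, F.fixed hd.1 hx]⟩
    exact (hle hm).2

theorem good_sup {y z : G} {N₁ N₂ : Subgroup G} (h1 : Good A Z y z N₁) (h2 : Good A Z y z N₂) :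
    Good A Z y z (N₁ ⊔ N₂) := by
  obtain ⟨hD1, hZ1, hc1, x₁, hx1, hm1⟩ := h1
  obtain ⟨hD2, hZ2, hc2, x₂, hx2, hm2⟩ := h2
  set C₁ := A ⊓ centralizer (N₁ : Set G) with hC1
  set C₂ := A ⊓ centralizer (N₂ : Set G) with hC2
  set Ci := A ⊓ centralizer ((N₁ ⊓ N₂ : Subgroup G) : Set G) with hCi
  set Cs := A ⊓ centralizer ((N₁ ⊔ N₂ : Subgroup G) : Set G) with hCs
  have b1 := F.card_bound (N := N₁ ⊓ N₂) (inf_le_left.trans hZ1) (le_inf hD1 hD2)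
  have b2 := F.card_bound (N := N₁ ⊔ N₂) (sup_le hZ1 hZ2) (hD1.trans le_sup_left)
  rw [← hCi] at b1
  rw [← hCs] at b2
  have e1 := card_sup_mul (A := N₁) (B := N₂) fun a ha b hb => F.commZ (hZ1 ha) (hZ2 hb)
  have e2 := card_sup_mul (A := C₁) (B := C₂) fun a (ha : a ∈ C₁) b (hb : b ∈ C₂) =>
    F.commA ha.1 hb.1
  have eC : C₁ ⊓ C₂ = Cs := by
    ext w
    constructor
    · rintro ⟨hw1, hw2⟩
      exact ⟨hw1.1, mem_centralizer_iff.2 fun m hm => (commute_sup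
        (fun a ha => (mem_centralizer_iff.1 hw1.2 a ha).symm)
        (fun b hb => (mem_centralizer_iff.1 hw2.2 b hb).symm) hm).eq.symm⟩
    · rintro ⟨hwA, hw⟩
      exact ⟨⟨hwA, centralizer_le (SetLike.coe_subset_coe.2 le_sup_left) hw⟩,
        ⟨hwA, centralizer_le (SetLike.coe_subset_coe.2 le_sup_right) hw⟩⟩
  rw [eC] at e2
  have hsub : C₁ ⊔ C₂ ≤ Ci :=
    sup_le (inf_le_inf_left A (centralizer_le (SetLike.coe_subset_coe.2 inf_le_left)))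
      (inf_le_inf_left A (centralizer_le (SetLike.coe_subset_coe.2 inf_le_right)))
  have hprod : Nat.card Ci * Nat.card Cs * (Nat.card N₁ * Nat.card N₂) ≤
      Nat.card C₁ * Nat.card C₂ * (Nat.card N₁ * Nat.card N₂) := by
    calc Nat.card Ci * Nat.card Cs * (Nat.card N₁ * Nat.card N₂)
        = (Nat.card (N₁ ⊓ N₂ : Subgroup G) * Nat.card Ci) *
            (Nat.card (N₁ ⊔ N₂ : Subgroup G) * Nat.card Cs) := by rw [← e1]; ring
      _ ≤ (Nat.card A * Nat.card (A ⊓ Z : Subgroup G)) *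
            (Nat.card A * Nat.card (A ⊓ Z : Subgroup G)) := Nat.mul_le_mul b1 b2
      _ ≤ (Nat.card N₁ * Nat.card C₁) * (Nat.card N₂ * Nat.card C₂) := Nat.mul_le_mul hc1 hc2
      _ = _ := by ring
  have hci : Nat.card Ci * Nat.card Cs ≤ Nat.card C₁ * Nat.card C₂ :=
    Nat.le_of_mul_le_mul_right hprod (Nat.mul_pos Nat.card_pos Nat.card_pos)
  rw [← e2] at hci
  have hCeq : C₁ ⊔ C₂ = Ci :=
    Subgroup.eq_of_le_of_card_ge hsub (Nat.le_of_mul_le_mul_right hci Nat.card_pos)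
  refine ⟨hD1.trans le_sup_left, sup_le hZ1 hZ2, ?_, ?_⟩
  · rw [← hCs]
    have h := Nat.mul_le_mul hc1 hc2
    have h' : (Nat.card N₁ * Nat.card C₁) * (Nat.card N₂ * Nat.card C₂) =
        (Nat.card (N₁ ⊔ N₂ : Subgroup G) * Nat.card Cs) *
          (Nat.card (N₁ ⊓ N₂ : Subgroup G) * Nat.card Ci) := by
      rw [← hCeq]
      calc _ = (Nat.card N₁ * Nat.card N₂) * (Nat.card C₁ * Nat.card C₂) := by ring
        _ = _ := by rw [← e1, ← e2]; ring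
    rw [h'] at h
    exact Nat.le_of_mul_le_mul_right (h.trans (Nat.mul_le_mul_left _ b1))
      (Nat.mul_pos Nat.card_pos Nat.card_pos)
  · have hw : x₁⁻¹ * x₂ ∈ C₁ ⊔ C₂ := by
      rw [hCeq]
      refine ⟨A.mul_mem (A.inv_mem hx1) hx2, mem_centralizer_iff.2 fun m hm => ?_⟩
      have h12 : ⁅m, x₂⁆ = ⁅m, x₁⁆ := by rw [← hm1 m hm.1, hm2 m hm.2]
      rw [show x₂ = x₁ * (x₁⁻¹ * x₂) by group, comm_mul_right] at h12
      have h13 := mul_eq_left.1 h12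
      exact (commutatorElement_eq_one_iff_commute.1 (conj_eq_one_iff.1 h13)).eq
    obtain ⟨c₁, hc₁, c₂, hc₂, hcc⟩ := mem_sup_commute
      (fun a (ha : a ∈ C₁) b (hb : b ∈ C₂) => F.commA ha.1 hb.1) hw
    refine ⟨x₁ * c₁, A.mul_mem hx1 hc₁.1, ?_⟩
    let K : Subgroup G :=
      { carrier := {m | m ∈ Z ∧ ⁅⁅m, y⁆, z⁆ = ⁅m, x₁ * c₁⁆}
        one_mem' := ⟨Z.one_mem, by simp⟩
        mul_mem' := by
          rintro a b ⟨ha, ha'⟩ ⟨hb, hb'⟩
          refine ⟨Z.mul_mem ha hb, ?_⟩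
          rw [F.hom ha hb, F.hom (F.zComm ha y) (F.zComm hb y), ha', hb', F.hom ha hb]
        inv_mem' := by
          rintro a ⟨ha, ha'⟩
          refine ⟨Z.inv_mem ha, ?_⟩
          rw [F.homInv ha, F.homInv (F.zComm ha y), ha', F.homInv ha] }
    have hle : N₁ ⊔ N₂ ≤ K := by
      refine sup_le (fun m hm => ⟨hZ1 hm, ?_⟩) (fun m hm => ⟨hZ2 hm, ?_⟩)
      · have h0 : ⁅m, c₁⁆ = 1 := comm_eq_one (mem_centralizer_iff.1 hc₁.2 m hm)
        rw [hm1 m hm, comm_mul_right, h0, mul_one, mul_inv_cancel, mul_one]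
      · have h0 : ⁅m, c₂⁻¹⁆ = 1 :=
          comm_eq_one (show Commute m c₂ from mem_centralizer_iff.1 hc₂.2 m hm).inv_right
        have e : x₁ * c₁ = x₂ * c₂⁻¹ := by
          rw [show x₂ = x₁ * (c₁ * c₂) by rw [hcc, mul_inv_cancel_left]]
          group
        rw [hm2 m hm, e, comm_mul_right, h0, mul_one, mul_inv_cancel, mul_one]
    exact fun m hm => (hle hm).2

/-- The element acting on `Z` as the product of two given ones. -/
theorem exists_product {y z : G} (hy : y ∈ A) (hz : z ∈ A) :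
    ∃ x ∈ A, ∀ v ∈ Z, ∀ b ∈ A, ⁅⁅⁅v, y⁆, z⁆, b⁆ = ⁅⁅v, x⁆, b⁆ := by
  classical
  obtain ⟨N, hN, hmax⟩ := Set.exists_max_image {N : Subgroup G | Good A Z y z N}
    (fun N : Subgroup G => Nat.card N) (Set.toFinite _) ⟨_, F.good_orbit Z.one_mem hy hz⟩
  obtain ⟨-, -, -, x, hx, hm⟩ := id hN
  refine ⟨x, hx, fun v hv b hb => ?_⟩
  have hle : closure ((fun a => ⁅v, a⁆) '' (A : Set G)) ⊔ (A ⊓ Z) ≤ N := by
    have e := Subgroup.eq_of_le_of_card_ge (le_sup_left : N ≤ N ⊔ _)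
      (hmax _ (F.good_sup hN (F.good_orbit hv hy hz)))
    rw [e]; exact le_sup_right
  have hvb : ⁅v, b⁆ ∈ N := hle (le_sup_left (b := A ⊓ Z) (subset_closure ⟨b, hb, rfl⟩))
  rw [F.swap (F.zComm hv y) hz hb, F.swap hv hy hb, hm _ hvb, F.swap hv hb hx]

/-- The action on `Z` is cubic modulo commutators with `Q`, and on `C` quartic modulo `Z`, when the
action on `Z` is not quadratic. -/
theorem case_cubic {p : ℕ} [Fact p.Prime] (hT : IsPGroup p T)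
    (hnq : ¬ ∀ v ∈ Z, ∀ a ∈ A, ∀ b ∈ A, ⁅⁅v, a⁆, b⁆ = 1) :
    (∀ y ∈ A, ∀ z ∈ A, ∃ x ∈ Q, ∀ v ∈ Z, ∀ b ∈ A, ⁅⁅⁅v, y⁆, z⁆, b⁆ = ⁅⁅v, x⁆, b⁆) ∧
      ∀ c ∈ C, Fold A Z 4 c := by
  classical
  obtain ⟨k, hk⟩ := exists_iter_eq_bot hT F.zT F.maxA.1
  have hdeep : ∀ j, ∀ v ∈ Cfsg.iterCommutator Z A j, v ∈ Z := by
    intro j
    induction j with
    | zero => exact fun v hv => hv
    | succ j ih =>
      refine fun v hv => (commutator_le (H₃ := Z)).2 (fun a ha b _ => F.zComm (ih a ha) b) hv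
  obtain ⟨j, hj, hjmax⟩ : ∃ j, (∃ w ∈ Cfsg.iterCommutator Z A j, ∃ a ∈ A, ∃ b ∈ A, ⁅⁅w, a⁆, b⁆ ≠ 1) ∧
      ∀ w ∈ Cfsg.iterCommutator Z A (j + 1), ∀ a ∈ A, ∀ b ∈ A, ⁅⁅w, a⁆, b⁆ = 1 := by
    by_contra hno
    push Not at hno
    have hall : ∀ j, ∃ w ∈ Cfsg.iterCommutator Z A j, ∃ a ∈ A, ∃ b ∈ A, ⁅⁅w, a⁆, b⁆ ≠ 1 := by
      intro j
      induction j with
      | zero =>
        push Not at hnq
        exact hnq
      | succ j ih => exact hno j ih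
    obtain ⟨w, hw, a, -, b, -, hne⟩ := hall k
    rw [hk, mem_bot] at hw
    simp [hw] at hne
  obtain ⟨w, hwj, a₀, ha₀, b₀, hb₀, hne⟩ := hj
  have hw : w ∈ Z := hdeep j w hwj
  have htriple : ∀ c ∈ A, ∀ a ∈ A, ∀ b ∈ A, ⁅⁅⁅w, c⁆, a⁆, b⁆ = 1 := fun c hc a ha b hb =>
    hjmax _ (commutator_mem_commutator hwj hc) a ha b hb
  obtain ⟨hmax, -⟩ := F.orbit hw
  set S := closure ((fun a => ⁅w, a⁆) '' (A : Set G)) ⊔ (A ⊓ Z) with hS
  set P := A ⊓ centralizer (S : Set G) with hP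
  have hSZ : S ≤ Z := fun s hs => F.orbit_mem hw hs
  have hgrow : A ⊓ Z < (S ⊔ P) ⊓ Z := by
    refine lt_of_le_of_ne (le_inf (le_sup_right.trans le_sup_left) inf_le_right) fun e => hne ?_
    have : ⁅w, a₀⁆ ∈ (S ⊔ P) ⊓ Z := ⟨le_sup_left (b := P) (le_sup_left (b := A ⊓ Z)
      (subset_closure ⟨a₀, ha₀, rfl⟩)), F.zComm hw a₀⟩
    rw [← e] at this
    exact F.fixed this.1 hb₀
  have hA'Q : S ⊔ P ≤ Q := by
    by_contra h
    exact hgrow.ne (Subgroup.eq_of_le_of_card_ge hgrow.le (F.max1 _ hmax h))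
  have hPQ : P ≤ Q := le_sup_right.trans hA'Q
  have hprod : ∀ y ∈ A, ∀ z ∈ A,
      ∃ x ∈ A, x ∈ Q ∧ ∀ v ∈ Z, ∀ b ∈ A, ⁅⁅⁅v, y⁆, z⁆, b⁆ = ⁅⁅v, x⁆, b⁆ := by
    intro y hy z hz
    obtain ⟨x, hx, hxv⟩ := F.exists_product hy hz
    refine ⟨x, hx, hPQ ⟨hx, mem_centralizer_iff.2 fun s hs => ?_⟩, hxv⟩
    refine ((commute_sup (x := x) (A := closure ((fun a => ⁅w, a⁆) '' (A : Set G))) (B := A ⊓ Z)
      (fun t ht => ?_) (fun d hd => F.commA hx hd.1) hs).eq).symm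
    induction ht using closure_induction with
    | mem t ht =>
      obtain ⟨b, hb, rfl⟩ := ht
      refine (commutatorElement_eq_one_iff_commute.1 ?_).symm
      rw [F.swap hw hb hx, ← hxv w hw b hb, htriple y hy z hz b hb]
    | one => exact Commute.one_right x
    | mul _ _ _ _ h1 h2 => exact h1.mul_right h2
    | inv _ _ h => exact h.inv_right
  refine ⟨fun y hy z hz => ?_, fun c hc y hy z hz a ha b hb => ?_⟩
  · obtain ⟨x, -, hxQ, hxv⟩ := hprod y hy z hz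
    exact ⟨x, hxQ, hxv⟩
  obtain ⟨x, hxA, hxQ, hxv⟩ := hprod y hy z hz
  show ⁅⁅⁅⁅c, y⁆, z⁆, a⁆, b⁆ ∈ Z
  -- the map `c ↦ [c, r]` for `r` in `P`
  have eqv : ∀ r ∈ A, r ∈ Q → ∀ u ∈ C, ∀ g ∈ A, ⁅⁅u, g⁆, r⁆ = ⁅⁅u, r⁆, g⁆ := by
    intro r hrA hrQ u hu g hg
    have hgu : g * u⁻¹ * g⁻¹ ∈ C := F.cn.conj_mem _ (C.inv_mem hu) g
    have hui : ⁅u⁻¹, r⁆ = ⁅u, r⁆⁻¹ := by
      rw [show ⁅u⁻¹, r⁆ = u⁻¹ * ⁅u, r⁆⁻¹ * u⁻¹⁻¹ by simp [commutatorElement_def, mul_assoc],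
        conj_of_commute (F.cent _ (Z.inv_mem (F.cqZ hu hrQ)) u⁻¹ (C.inv_mem hu)).symm]
    have hgr : ⁅g * u⁻¹ * g⁻¹, r⁆ = g * ⁅u, r⁆⁻¹ * g⁻¹ := by
      calc ⁅g * u⁻¹ * g⁻¹, r⁆ = ⁅g * u⁻¹ * g⁻¹, g * r * g⁻¹⁆ := by rw [F.conjA hrA hg]
        _ = g * ⁅u⁻¹, r⁆ * g⁻¹ := by simp [commutatorElement_def, mul_assoc]
        _ = _ := by rw [hui]
    calc ⁅⁅u, g⁆, r⁆ = ⁅u * (g * u⁻¹ * g⁻¹), r⁆ := by simp [commutatorElement_def, mul_assoc]
      _ = u * (g * ⁅u, r⁆⁻¹ * g⁻¹) * u⁻¹ * ⁅u, r⁆ := by rw [comm_mul_left, hgr]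
      _ = g * ⁅u, r⁆⁻¹ * g⁻¹ * ⁅u, r⁆ := by
        rw [conj_of_commute (F.cent _ (F.zn.conj_mem _ (Z.inv_mem (F.cqZ hu hrQ)) g) u hu).symm]
      _ = ⁅u, r⁆ * (g * ⁅u, r⁆⁻¹ * g⁻¹) :=
        (F.commZ (F.zn.conj_mem _ (Z.inv_mem (F.cqZ hu hrQ)) g) (F.cqZ hu hrQ)).eq
      _ = _ := by simp [commutatorElement_def, mul_assoc]
  set c1 := ⁅⁅c, y⁆, z⁆ with hc1
  set c2 := ⁅c, x⁆ with hc2
  have hc1C : c1 ∈ C := F.cComm (F.cComm hc y) z
  have hc2Z : c2 ∈ Z := F.cqZ hc hxQ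
  set v := c1 * c2⁻¹ with hv
  have hvC : v ∈ C := C.mul_mem hc1C (C.inv_mem (F.zC hc2Z))
  have hv'C : ⁅v, a⁆ ∈ C := F.cComm hvC a
  have hrP : ∀ r ∈ P, Commute ⁅v, a⁆ r := by
    intro r hr
    refine commutatorElement_eq_one_iff_commute.1 ?_
    rw [eqv r hr.1 (hPQ hr) v hvC a ha]
    set u := ⁅c, r⁆ with hu
    have huZ : u ∈ Z := F.cqZ hc (hPQ hr)
    have h1 : ⁅c1, r⁆ = ⁅⁅u, y⁆, z⁆ := by
      rw [hc1, eqv r hr.1 (hPQ hr) _ (F.cComm hc y) z hz, eqv r hr.1 (hPQ hr) c hc y hy]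
    have h2 : ⁅c2, r⁆ = ⁅u, x⁆ := eqv r hr.1 (hPQ hr) c hc x hxA
    have hvr : ⁅v, r⁆ = ⁅⁅u, y⁆, z⁆ * ⁅u, x⁆⁻¹ := by
      rw [hv, comm_mul_left, F.homInv hc2Z, h2, h1,
        conj_of_commute (F.cent _ (Z.inv_mem (F.zComm huZ x)) c1 hc1C).symm,
        (F.commZ (Z.inv_mem (F.zComm huZ x)) (F.zComm (F.zComm huZ y) z)).eq]
    rw [hvr, F.hom (F.zComm (F.zComm huZ y) z) (Z.inv_mem (F.zComm huZ x)),
      F.homInv (F.zComm huZ x), hxv u huZ a ha, mul_inv_cancel]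
  have hvA' : ⁅v, a⁆ ∈ S ⊔ P :=
    mem_of_commute hmax (F.qT (F.cQ hv'C)) fun m hm =>
      commute_sup (fun s hs => (F.cent s (hSZ hs) _ hv'C).symm) hrP hm
  have hvb : ⁅⁅v, a⁆, b⁆ ∈ Z := by
    obtain ⟨s, hs, r, hr, hsr⟩ := mem_sup_commute
      (fun s hs r (hr : r ∈ P) => mem_centralizer_iff.1 hr.2 s hs) hvA'
    rw [← hsr, comm_mul_left, F.fixed hr.1 hb, mul_one, mul_inv_cancel, one_mul]
    exact F.zComm (hSZ hs) b
  have e1 : ⁅c1, a⁆ = ⁅c2, a⁆ * ⁅v, a⁆ := by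
    rw [show c1 = c2 * v by
      rw [hv, ← mul_assoc, (F.cent _ hc2Z c1 hc1C).eq, mul_assoc, mul_inv_cancel, mul_one],
      comm_mul_left, conj_of_commute (F.cent _ hc2Z _ hv'C),
      (F.cent _ (F.zComm hc2Z a) _ hv'C).eq]
  rw [e1, comm_mul_left]
  exact Z.mul_mem (F.zn.conj_mem _ hvb _) (F.zComm (F.zComm hc2Z a) b)

/-- When `A` is quadratic on `Z` the iterated commutator `[C, A; 5]` vanishes. -/
theorem case_quadratic {p : ℕ} [Fact p.Prime] (hT : IsPGroup p T)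
    (hq : ∀ v ∈ Z, ∀ a ∈ A, ∀ b ∈ A, ⁅⁅v, a⁆, b⁆ = 1) :
    Cfsg.iterCommutator C A 5 = ⊥ := by
  classical
  by_contra h5
  let L := Cfsg.iterCommutator C A
  have hLC : ∀ j, ∀ c ∈ L j, c ∈ C := by
    intro j
    induction j with
    | zero => exact fun c hc => hc
    | succ j ih =>
      exact fun v hv => (commutator_le (H₃ := C)).2 (fun a ha b _ => F.cComm (ih a ha) b) hv
  have hLanti : Antitone L := by
    refine antitone_nat_of_succ_le fun j => le_normalizer_iff_commutator_le_left.1 ?_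
    cases j with
    | zero =>
      have := F.cn
      exact (le_normalizer_of_normal : A ≤ normalizer (C : Set G))
    | succ j =>
      intro g hg
      rw [mem_normalizer_iff_map_conj_eq]
      refine Subgroup.eq_of_le_of_card_ge ?_ (card_map_of_injective (MulAut.conj g).injective).ge
      rw [map_le_iff_le_comap]
      refine commutator_le.2 fun u hu b hb => ?_
      show g * ⁅u, b⁆ * g⁻¹ ∈ ⁅L j, A⁆
      rw [show g * ⁅u, b⁆ * g⁻¹ = ⁅u, g⁆⁻¹ * ⁅u, g * b⁆ by simp [commutatorElement_def, mul_assoc]]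
      exact mul_mem (inv_mem (commutator_mem_commutator hu hg))
        (commutator_mem_commutator hu (A.mul_mem hg hb))
  obtain ⟨k, hk⟩ := exists_iter_eq_bot hT (F.cQ.trans F.qT) F.maxA.1
  have hex : ∃ n, L n = ⊥ := ⟨k, hk⟩
  set N := Nat.find hex with hN
  have hN6 : 6 ≤ N := by
    by_contra hlt
    exact h5 (le_bot_iff.1 ((hLanti (show N ≤ 5 by omega)).trans (Nat.find_spec hex).le))
  obtain ⟨n, hn⟩ : ∃ n, N = n + 3 := ⟨N - 3, by omega⟩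
  have hn3 : 3 ≤ n := by omega
  have hLn : L (n + 3) = ⊥ := hn ▸ Nat.find_spec hex
  have hne : L (n + 2) ≠ ⊥ := Nat.find_min hex (by omega)
  have hD2 : L (n + 2) ≤ A ⊓ C := fun c hc => by
    refine ⟨F.mem_of_fixed (F.qT (F.cQ (hLC _ c hc))) fun a ha => ?_, hLC _ c hc⟩
    have hm : ⁅c, a⁆ ∈ L (n + 3) := commutator_mem_commutator hc ha
    rwa [hLn, mem_bot] at hm
  have hw : ∃ w ∈ L n, ∃ a ∈ A, ⁅w, a⁆ ∉ A := by
    by_contra hno
    push Not at hno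
    refine hne (le_bot_iff.1 (commutator_le.2 fun c hc a ha => mem_bot.2 (F.fixed ?_ ha)))
    exact (commutator_le (H₃ := A)).2 hno hc
  obtain ⟨w, hw, a₀, ha₀, hwa⟩ := hw
  have hwC : w ∈ C := hLC _ w hw
  -- the maps `c ↦ [c, r]`
  have homR : ∀ r ∈ Q, ∀ u ∈ C, ∀ u' ∈ C, ⁅u * u', r⁆ = ⁅u, r⁆ * ⁅u', r⁆ := by
    intro r hr u hu u' hu'
    rw [comm_mul_left, conj_of_commute (F.cent _ (F.cqZ hu' hr) u hu).symm,
      (F.commZ (F.cqZ hu' hr) (F.cqZ hu hr)).eq]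
  have homRinv : ∀ r ∈ Q, ∀ u ∈ C, ⁅u⁻¹, r⁆ = ⁅u, r⁆⁻¹ := fun r hr u hu =>
    eq_inv_of_mul_eq_one_left (by
      rw [← homR r hr _ (C.inv_mem hu) u hu, inv_mul_cancel, commutatorElement_one_left])
  have twist : ∀ r ∈ Q, ∀ u ∈ C, ∀ g : G,
      ⁅⁅u, g⁆, r⁆ = ⁅u, r⁆ * (g * ⁅u, g⁻¹ * r * g⁆⁻¹ * g⁻¹) := by
    intro r hr u hu g
    have hr' : g⁻¹ * r * g ∈ Q := by simpa using F.qn.conj_mem r hr g⁻¹
    calc ⁅⁅u, g⁆, r⁆ = ⁅u * (g * u⁻¹ * g⁻¹), r⁆ := by simp [commutatorElement_def, mul_assoc]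
      _ = ⁅u, r⁆ * ⁅g * u⁻¹ * g⁻¹, r⁆ := homR r hr u hu _ (F.cn.conj_mem _ (C.inv_mem hu) g)
      _ = ⁅u, r⁆ * (g * ⁅u⁻¹, g⁻¹ * r * g⁆ * g⁻¹) := by simp [commutatorElement_def, mul_assoc]
      _ = _ := by rw [homRinv _ hr' u hu]
  -- the subgroup of `c` with `[c, r]` in a given subgroup
  let KR : (r : G) → r ∈ Q → Subgroup G → Subgroup G := fun r hr Y =>
    { carrier := {c | c ∈ C ∧ ⁅c, r⁆ ∈ Y}
      one_mem' := ⟨C.one_mem, by simp⟩
      mul_mem' := by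
        rintro a b ⟨ha, ha'⟩ ⟨hb, hb'⟩
        exact ⟨C.mul_mem ha hb, by rw [homR r hr a ha b hb]; exact Y.mul_mem ha' hb'⟩
      inv_mem' := by
        rintro a ⟨ha, ha'⟩
        exact ⟨C.inv_mem ha, by rw [homRinv r hr a ha]; exact Y.inv_mem ha'⟩ }
  have fixR : ∀ r ∈ A, r ∈ Q → (∀ c ∈ L 1, ⁅c, r⁆ ∈ A) ∧ ∀ c ∈ L 2, ⁅c, r⁆ = 1 := by
    intro r hrA hrQ
    have e : ∀ u ∈ C, ∀ g ∈ A, ⁅⁅u, g⁆, r⁆ = ⁅⁅u, r⁆, g⁆ := by
      intro u hu g hg
      rw [twist r hrQ u hu g, show g⁻¹ * r * g = r by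
        simpa using F.conjA hrA (A.inv_mem hg)]
      simp [commutatorElement_def, mul_assoc]
    have h1 : L 1 ≤ KR r hrQ A := commutator_le.2 fun u hu g hg => by
      refine ⟨F.cComm hu g, ?_⟩
      rw [e u hu g hg]
      exact F.mem_of_fixed (F.zT (F.zComm (F.cqZ hu hrQ) g)) fun b hb =>
        hq _ (F.cqZ hu hrQ) g hg b hb
    have h2 : L 2 ≤ KR r hrQ ⊥ := commutator_le.2 fun u hu g hg => by
      refine ⟨F.cComm (h1 hu).1 g, mem_bot.2 ?_⟩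
      rw [e u (h1 hu).1 g hg]
      exact F.fixed (h1 hu).2 hg
    exact ⟨fun c hc => (h1 hc).2, fun c hc => mem_bot.1 (h2 hc).2⟩
  have o1 : ∀ c ∈ L 2, ∀ d ∈ A, d ∈ Q → Commute c d := fun c hc d hd hdQ =>
    commutatorElement_eq_one_iff_commute.1 ((fixR d hd hdQ).2 c hc)
  have o2 : ∀ y ∈ C, (∀ b ∈ A, ⁅y, b⁆ ∈ A) → ∀ c ∈ L 3, Commute c y := by
    intro y hy hyb
    have hyQ := F.cQ hy
    have e : ∀ u ∈ C, ∀ g ∈ A, ∃ d ∈ A, d ∈ Q ∧
        ⁅⁅u, g⁆, y⁆ = ⁅⁅u, y⁆, g⁆ * (g * ⁅u, d⁆⁻¹ * g⁻¹) := by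
      intro u hu g hg
      set d := ⁅y, g⁻¹⁆⁻¹ with hd
      have hdA : d ∈ A := A.inv_mem (hyb _ (A.inv_mem hg))
      have hdC : d ∈ C := C.inv_mem (F.cComm hy _)
      refine ⟨d, hdA, F.cQ hdC, ?_⟩
      rw [twist y hyQ u hu g, show g⁻¹ * y * g = d * y by simp [hd, commutatorElement_def, mul_assoc],
        comm_mul_right, conj_of_commute (F.cent _ (F.cqZ hu hyQ) d hdC).symm,
        (F.commZ (F.cqZ hu (F.cQ hdC)) (F.cqZ hu hyQ)).eq, mul_inv_rev,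
        (F.commZ (Z.inv_mem (F.cqZ hu (F.cQ hdC))) (Z.inv_mem (F.cqZ hu hyQ))).eq]
      simp [commutatorElement_def, mul_assoc]
    have h2 : L 2 ≤ KR y hyQ A := commutator_le.2 fun u hu g hg => by
      have huC := hLC 1 u hu
      obtain ⟨d, hd, hdQ, he⟩ := e u huC g hg
      refine ⟨F.cComm huC g, he ▸ A.mul_mem (F.mem_of_fixed (F.zT (F.zComm (F.cqZ huC hyQ) g))
        fun b hb => hq _ (F.cqZ huC hyQ) g hg b hb) ?_⟩
      exact A.mul_mem (A.mul_mem hg (A.inv_mem ((fixR d hd hdQ).1 u hu))) (A.inv_mem hg)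
    have h3 : L 3 ≤ KR y hyQ ⊥ := commutator_le.2 fun u hu g hg => by
      have huC := hLC 2 u hu
      obtain ⟨d, hd, hdQ, he⟩ := e u huC g hg
      refine ⟨F.cComm huC g, mem_bot.2 ?_⟩
      rw [he, (fixR d hd hdQ).2 u hu, F.fixed (h2 hu).2 hg, inv_one, mul_one, mul_inv_cancel, mul_one]
    exact fun c hc => commutatorElement_eq_one_iff_commute.1 (mem_bot.1 (h3 hc).2)
  -- the replacement
  set S := closure ((fun a => ⁅w, a⁆) '' (A : Set G)) ⊔ (A ⊓ C) with hS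
  have hgenL : ∀ a ∈ A, ⁅w, a⁆ ∈ L (n + 1) := fun a ha => commutator_mem_commutator hw ha
  have hgenN : ∀ a ∈ A, ∀ b ∈ A, ⁅⁅w, a⁆, b⁆ ∈ A := fun a ha b hb =>
    (hD2 (commutator_mem_commutator (hgenL a ha) hb)).1
  have hL2 : ∀ a ∈ A, ⁅w, a⁆ ∈ L 2 := fun a ha => hLanti (show 2 ≤ n + 1 by omega) (hgenL a ha)
  have hL3 : ∀ a ∈ A, ⁅w, a⁆ ∈ L 3 := fun a ha => hLanti (show 3 ≤ n + 1 by omega) (hgenL a ha)
  have hgd : ∀ a ∈ A, ∀ d ∈ A ⊓ C, Commute ⁅w, a⁆ d := fun a ha d hd =>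
    o1 _ (hL2 a ha) d hd.1 (F.cQ hd.2)
  have hclA : ∀ {x : G}, (∀ a ∈ A, Commute x ⁅w, a⁆) →
      ∀ t ∈ closure ((fun a => ⁅w, a⁆) '' (A : Set G)), Commute x t := by
    intro x hx t ht
    induction ht using closure_induction with
    | mem t ht => obtain ⟨b, hb, rfl⟩ := ht; exact hx b hb
    | one => exact Commute.one_right x
    | mul _ _ _ _ h1 h2 => exact h1.mul_right h2
    | inv _ _ h => exact h.inv_right
  have hSab : ∀ s ∈ S, ∀ t ∈ S, Commute s t := by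
    refine commute_sup_sup (A := closure ((fun a => ⁅w, a⁆) '' (A : Set G))) (B := A ⊓ C)
      (fun s hs t ht => commute_closure ?_ hs ht)
      (fun s hs t ht => F.commA hs.1 ht.1) fun s hs d hd =>
        (hclA (fun a ha => (hgd a ha d hd).symm) s hs).symm
    rintro _ ⟨a, ha, rfl⟩ _ ⟨b, hb, rfl⟩
    exact o2 _ (F.cComm hwC b) (hgenN b hb) _ (hL3 a ha)
  have hSC : S ≤ C := sup_le ((closure_le _).2 (by
    rintro _ ⟨a, -, rfl⟩; exact F.cComm hwC a)) inf_le_right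
  have hgenS : ∀ a ∈ A, ⁅w, a⁆ ∈ S := fun a ha =>
    le_sup_left (b := A ⊓ C) (subset_closure ⟨a, ha, rfl⟩)
  obtain ⟨hmax, -⟩ := replacement F.maxA (hSC.trans (F.cQ.trans F.qT)) hSab (fun a => ⁅w, a⁆) hgenS
    (fun a ha a' ha' h => by
      set x := a⁻¹ * a' with hx
      have hxA : x ∈ A := A.mul_mem (A.inv_mem ha) ha'
      have e : a' = a * x := by rw [hx, mul_inv_cancel_left]
      simp only [e, comm_mul_right, inv_mul_cancel_left] at h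
      have hwx : ⁅w, x⁆ ∈ A := by
        have := F.conjA h (A.inv_mem ha)
        rw [show a⁻¹ * (a * ⁅w, x⁆ * a⁻¹) * a⁻¹⁻¹ = ⁅w, x⁆ by group] at this
        rw [this]; exact h
      have hd : ⁅x, w⁆ ∈ A ⊓ C := by
        rw [← commutatorElement_inv]
        exact ⟨A.inv_mem hwx, C.inv_mem (F.cComm hwC x)⟩
      intro s hs
      refine commute_sup (A := closure ((fun a => ⁅w, a⁆) '' (A : Set G))) (B := A ⊓ C)
        (hclA fun b hb => commute_of_conj ?_) (fun d hd => F.commA hxA hd.1) hs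
      calc x * ⁅w, b⁆ * x⁻¹ = ⁅x * w * x⁻¹, x * b * x⁻¹⁆ := by
            simp [commutatorElement_def, mul_assoc]
        _ = ⁅⁅x, w⁆ * w, b⁆ := by rw [F.conjA hb hxA, conj_eq]
        _ = ⁅w, b⁆ := by
            rw [comm_mul_left, conj_of_commute (hgd b hb _ hd).symm, F.fixed hd.1 hb, mul_one])
  set P := A ⊓ centralizer (S : Set G) with hP
  have hAZ : A ⊓ Z ≤ (S ⊔ P) ⊓ Z :=
    le_inf ((le_inf inf_le_left (inf_le_right.trans F.zC)).trans (le_sup_right.trans le_sup_left))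
      inf_le_right
  have hgrow : A ⊓ C < (S ⊔ P) ⊓ C := by
    refine lt_of_le_of_ne (le_inf (le_sup_right.trans le_sup_left) inf_le_right) fun e => hwa ?_
    have : ⁅w, a₀⁆ ∈ (S ⊔ P) ⊓ C := ⟨le_sup_left (b := P) (hgenS a₀ ha₀), F.cComm hwC a₀⟩
    rw [← e] at this
    exact this.1
  have hA'Q : S ⊔ P ≤ Q := by
    by_contra h
    have h1 := le_antisymm (F.max1 _ hmax h) (Subgroup.card_le_of_le hAZ)
    exact hgrow.ne (Subgroup.eq_of_le_of_card_ge hgrow.le (F.max2 _ hmax h h1))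
  have hPQ : P ≤ Q := le_sup_right.trans hA'Q
  let M : Subgroup G :=
    { carrier := {t | t ∈ C ∧ (∀ d ∈ A ⊓ C, Commute t d) ∧ ∀ b ∈ A, ⁅t, b⁆ ∈ A ⊓ C}
      one_mem' := ⟨C.one_mem, fun d _ => Commute.one_left d, fun b _ => by simp⟩
      mul_mem' := by
        rintro s t ⟨hs, hs', hs''⟩ ⟨ht, ht', ht''⟩
        refine ⟨C.mul_mem hs ht, fun d hd => (hs' d hd).mul_left (ht' d hd), fun b hb => ?_⟩
        rw [comm_mul_left, conj_of_commute (hs' _ (ht'' b hb))]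
        exact (A ⊓ C).mul_mem (ht'' b hb) (hs'' b hb)
      inv_mem' := by
        rintro s ⟨hs, hs', hs''⟩
        refine ⟨C.inv_mem hs, fun d hd => (hs' d hd).inv_left, fun b hb => ?_⟩
        rw [show ⁅s⁻¹, b⁆ = s⁻¹ * ⁅s, b⁆⁻¹ * s⁻¹⁻¹ by simp [commutatorElement_def, mul_assoc],
          conj_of_commute ((hs' _ (hs'' b hb)).inv_left.inv_right)]
        exact (A ⊓ C).inv_mem (hs'' b hb) }
  have hSM : S ≤ M := by
    refine sup_le ((closure_le _).2 ?_) fun d hd => ?_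
    · rintro _ ⟨a, ha, rfl⟩
      exact ⟨F.cComm hwC a, hgd a ha, fun b hb => hD2 (commutator_mem_commutator (hgenL a ha) hb)⟩
    · exact ⟨hd.2, fun d' hd' => F.commA hd.1 hd'.1, fun b hb => by
        rw [F.fixed hd.1 hb]; exact one_mem _⟩
  have h4 : L 4 ≤ A := commutator_le.2 fun u hu g hg => by
    have huA' : u ∈ S ⊔ P := mem_of_commute hmax (F.qT (F.cQ (hLC 3 u hu))) fun m hm =>
      commute_sup (A := S) (B := P) (fun s hs => commute_sup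
        (A := closure ((fun a => ⁅w, a⁆) '' (A : Set G))) (B := A ⊓ C) (hclA fun a ha => o2 _ (F.cComm hwC a) (hgenN a ha) u hu)
        (fun d hd => o1 u (hLanti (show 2 ≤ 3 by norm_num) hu) d hd.1 (F.cQ hd.2)) hs)
        (fun r hr => o1 u (hLanti (show 2 ≤ 3 by norm_num) hu) r hr.1 (hPQ hr)) hm
    obtain ⟨s, hs, r, hr, hsr⟩ := mem_sup_commute
      (fun s hs r (hr : r ∈ P) => mem_centralizer_iff.1 hr.2 s hs) huA'
    rw [← hsr, comm_mul_left, F.fixed hr.1 hg, mul_one, mul_inv_cancel, one_mul]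
    exact ((hSM hs).2.2 g hg).1
  refine h5 (le_bot_iff.1 (commutator_le.2 fun u hu g hg => ?_))
  exact mem_bot.2 (F.fixed (h4 hu) hg)

/-- The degree bounds: `5` on `C` and `2` on `Z`, or `4` and `3`, on chief factors. -/
theorem degree {p : ℕ} [Fact p.Prime] (hT : IsPGroup p T)
    (hchief : ∀ U V : Subgroup G, Cfsg.IsChiefFactor U V → U ≤ Q → ⁅U, Q⁆ ≤ V) {g : G} (hg : g ∈ A) :
    ∃ i j, 1 ≤ i ∧ 1 ≤ j ∧ i + j - 1 ≤ 6 ∧
      (∀ U V : Subgroup G, Cfsg.IsChiefFactor U V → U ≤ C →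
        Cfsg.iterCommutator U (zpowers g) i ≤ V) ∧
      ∀ U V : Subgroup G, Cfsg.IsChiefFactor U V → U ≤ Z →
        Cfsg.iterCommutator U (zpowers g) j ≤ V := by
  have hgA : zpowers g ≤ A := zpowers_le.2 hg
  have hin : ∀ U V : Subgroup G, Cfsg.IsChiefFactor U V → U ≤ Q → ∀ A' : Subgroup G,
      ⁅U, A'⁆ ≤ U ∧ ⁅V, A'⁆ ≤ V ∧ ⁅U, U⁆ ≤ V := by
    intro U V h hU A'
    have := h.2.1
    have := h.2.2.1
    exact ⟨commutator_le_left _ _, commutator_le_left _ _,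
      (commutator_mono le_rfl hU).trans (hchief U V h hU)⟩
  by_cases hq : ∀ v ∈ Z, ∀ a ∈ A, ∀ b ∈ A, ⁅⁅v, a⁆, b⁆ = 1
  · refine ⟨5, 2, by norm_num, by norm_num, le_rfl, fun U V _ hU => ?_, fun U V h hU => ?_⟩
    · exact ((iter_mono hU hgA 5).trans (F.case_quadratic hT hq).le).trans bot_le
    · obtain ⟨h1, h2, h3⟩ := hin U V h (hU.trans (F.zC.trans F.cQ)) A
      refine (iter_mono le_rfl hgA 2).trans (iter_le_of_fold h1 h.1.le h2 h3 2 ?_)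
      intro v hv a ha b hb
      show ⁅⁅v, a⁆, b⁆ ∈ V
      rw [hq v (hU hv) a ha b hb]
      exact V.one_mem
  · obtain ⟨hZ3, hC4⟩ := F.case_cubic hT hq
    have hcub : ∀ U V : Subgroup G, Cfsg.IsChiefFactor U V → U ≤ Z →
        Cfsg.iterCommutator U A 3 ≤ V := by
      intro U V h hU
      obtain ⟨h1, h2, h3⟩ := hin U V h (hU.trans (F.zC.trans F.cQ)) A
      refine iter_le_of_fold h1 h.1.le h2 h3 3 fun v hv y hy z hz b hb => ?_
      obtain ⟨x, hxQ, hx⟩ := hZ3 y hy z hz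
      show ⁅⁅⁅v, y⁆, z⁆, b⁆ ∈ V
      rw [hx v (hU hv) b hb]
      exact h2 (commutator_mem_commutator
        (hchief U V h (hU.trans (F.zC.trans F.cQ)) (commutator_mem_commutator hv hxQ)) hb)
    have hC4' : Cfsg.iterCommutator C A 4 ≤ Z := by
      have := F.cn
      have := F.zn
      exact iter_le_of_fold (commutator_le_left _ _) F.zC (commutator_le_left _ _)
        ((commutator_mono le_rfl F.cQ).trans F.comm) 4 hC4
    refine ⟨4, 3, by norm_num, by norm_num, le_rfl, fun U V h hU => ?_,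
      fun U V h hU => (iter_mono le_rfl hgA 3).trans (hcub U V h hU)⟩
    have := h.2.1
    have := h.2.2.1
    have := F.zn
    rcases h.2.2.2 ((U ⊓ Z) ⊔ V) inferInstance le_sup_right (sup_le inf_le_left h.1.le) with e | e
    · refine le_trans (le_inf ?_ ((iter_mono hU hgA 4).trans hC4')) (le_sup_left.trans e.le)
      have hsub : ∀ k, Cfsg.iterCommutator U (zpowers g) k ≤ U := by
        intro k
        induction k with
        | zero => exact le_rfl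
        | succ k ih => exact (commutator_mono ih le_rfl).trans (commutator_le_left _ _)
      exact hsub 4
    · obtain ⟨-, hV, hUU⟩ := hin U V h (hU.trans F.cQ) A
      refine (iter_mono le_rfl hgA 4).trans ?_
      refine iter_le_of_fold (commutator_le_left _ _) h.1.le hV hUU 4 ?_
      intro c hc y hy z hz a ha b hb
      rw [← e] at hc
      obtain ⟨c₁, hc₁, c₂, hc₂, rfl⟩ := mem_sup_of_normal_right.1 hc
      obtain ⟨x, hxQ, hx⟩ := hZ3 y hy z hz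
      have h1 : ⁅⁅⁅⁅c₁, y⁆, z⁆, a⁆, b⁆ ∈ V := by
        rw [hx c₁ hc₁.2 a ha]
        exact hV (commutator_mem_commutator (hV (commutator_mem_commutator
          (hchief U V h (hU.trans F.cQ) (commutator_mem_commutator hc₁.1 hxQ)) ha)) hb)
      show ⁅⁅⁅⁅c₁ * c₂, y⁆, z⁆, a⁆, b⁆ ∈ V
      rw [← QuotientGroup.eq_one_iff] at h1 hc₂ ⊢
      simp only [commutatorElement_def, QuotientGroup.mk_mul, QuotientGroup.mk_inv, hc₂, mul_one]
        at h1 ⊢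
      exact h1

end Frame

end Cfsg.Agent.H47.JTransfer
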