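import Cfsg.Agent.H47.JTransfer.Core
import Cfsg.Agent.H35.ThompsonA
import Cfsg.Agent.H61.Quartic
import Cfsg.Agent.H61.TransferApps
import Cfsg.Agent.H89.HallWielandt

/-!
For `p ≥ 7` the normalizer of the abelian Thompson subgroup controls the `p`-residual.
-/

set_option autoImplicit false

namespace Cfsg.Agent.H47.JTransfer

open scoped commutatorElement
open Subgroup
open Cfsg.Agent.H72 (IsMaxAb)

universe u

/-- The abelian Thompson subgroup is an invariant functor. -/
theorem isCharPFunctor_thompsonA {p : ℕ} [Fact p.Prime] :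
    Cfsg.IsCharPFunctor.{u} p (fun Q _ => Cfsg.thompsonSubgroupA Q) := by
  refine ⟨fun Q _ _ _ hnt e => ?_, fun Q R _ _ _ _ φ => H35.thompsonSubgroupA_map_equiv φ⟩
  have h : (⊤ : Subgroup Q) ≠ ⊥ := (nontrivial_iff_ne_bot _).1
    (Equiv.nontrivial (Subgroup.topEquiv (G := Q)).toEquiv)
  refine H72.thompsonSubgroupAOf_ne_bot h ?_
  rw [Cfsg.thompsonSubgroupAOf, ← H35.thompsonSubgroupA_map_equiv
    (Subgroup.topEquiv (G := Q)).symm, show Cfsg.thompsonSubgroupA Q = ⊥ from e, Subgroup.map_bot,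
    Subgroup.map_bot]

variable {G : Type u} [Group G] [Finite G] {p : ℕ} [Fact p.Prime]

/-- If the abelian Thompson subgroup is not normal, some abelian subgroup of largest order is not in
the core. -/
theorem exists_notQ (T : Sylow p G) (hn : ¬ (Cfsg.thompsonSubgroupAOf (T : Subgroup G)).Normal) :
    ∃ A, IsMaxAb (T : Subgroup G) A ∧ ¬ A ≤ Cfsg.pCore p G := by
  by_contra hno
  push Not at hno
  refine hn ⟨fun x hx g => ?_⟩
  have hQn : (Cfsg.pCore p G).Normal := H19.pCore_normal p G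
  rw [H72.thompsonSubgroupAOf_eq] at hx ⊢
  have hle : sSup {A | IsMaxAb (T : Subgroup G) A} ≤
      (sSup {A | IsMaxAb (T : Subgroup G) A}).comap (MulAut.conj g).toMonoidHom := by
    refine sSup_le fun A hA => ?_
    rw [← map_le_iff_le_comap]
    refine le_sSup ?_
    refine ⟨?_, ?_, fun B hB hBc => ?_⟩
    · rintro _ ⟨a, ha, rfl⟩
      exact H19.pCore_le_sylow T (hQn.conj_mem a (hno A hA ha) g)
    · rintro _ ⟨a, ha, rfl⟩ _ ⟨b, hb, rfl⟩
      exact (hA.2.1 a ha b hb).map (MulAut.conj g).toMonoidHom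
    · rw [card_map_of_injective (MulAut.conj g).injective]
      exact hA.2.2 B hB hBc
  exact hle hx

/-- An element outside the core with small degree on the chief factors below the core. -/
theorem exists_engel (hp : 7 ≤ p) (T : Sylow p G)
    (hn : ¬ (Cfsg.thompsonSubgroupAOf (T : Subgroup G)).Normal) :
    ∃ g : G, g ∈ (T : Subgroup G) ∧ g ∉ Cfsg.pCore p G ∧ ∀ U V : Subgroup G,
      Cfsg.IsChiefFactor U V → U ≤ Cfsg.pCore p G →
        Cfsg.iterCommutator U (zpowers g) (p - 1) ≤ V := by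
  classical
  set Q := Cfsg.pCore p G with hQ
  have hQn : Q.Normal := H19.pCore_normal p G
  have hQp : IsPGroup p Q := H19.pCore_isPGroup p
  obtain ⟨C, hC, hself⟩ := H61.exists_critHyp (G := G) (p := p)
  have hCn : C.Normal := hC.normal
  set Z := H61.cz C with hZ
  have hZn : Z.Normal := H61.cz_normal C
  obtain ⟨A₀, hA₀⟩ := exists_notQ T hn
  obtain ⟨A₁, hA₁, h1⟩ := Set.exists_max_image
    {A | IsMaxAb (T : Subgroup G) A ∧ ¬ A ≤ Q}
    (fun A : Subgroup G => Nat.card (A ⊓ Z : Subgroup G)) (Set.toFinite _) ⟨A₀, hA₀⟩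
  obtain ⟨A, ⟨⟨hAmax, hAQ⟩, hAc⟩, h2⟩ := Set.exists_max_image
    {A | (IsMaxAb (T : Subgroup G) A ∧ ¬ A ≤ Q) ∧
      Nat.card (A ⊓ Z : Subgroup G) = Nat.card (A₁ ⊓ Z : Subgroup G)}
    (fun A : Subgroup G => Nat.card (A ⊓ C : Subgroup G)) (Set.toFinite _) ⟨A₁, hA₁, rfl⟩
  have F : Frame (T : Subgroup G) Q C Z A :=
    { qn := hQn
      cn := hCn
      zn := hZn
      qT := H19.pCore_le_sylow T
      cQ := hC.le
      zC := inf_le_left
      cent := fun z hz c hc => (mem_centralizer_iff.1 hz.2 c hc).symm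
      comm := by rw [Subgroup.commutator_comm]; exact hC.comm
      maxA := hAmax
      notQ := hAQ
      max1 := fun A' h h' => hAc ▸ h1 A' ⟨h, h'⟩
      max2 := fun A' h h' e => h2 A' ⟨⟨h, h'⟩, e.trans hAc⟩ }
  obtain ⟨g, hgA, hgQ⟩ := SetLike.not_le_iff_exists.1 hAQ
  obtain ⟨i, j, hi, hj, hij, hCi, hZj⟩ := F.degree T.2
    (fun U V hUV hU => H61.chief_commutator_le hQp hUV hU) hgA
  refine ⟨g, hAmax.1 hgA, hgQ, fun U V hUV hU => ?_⟩
  have h := H61.chief_degree_bound Q hQp C hC.le hC.comm hself g i j hi hj hCi hZj U V hUV hU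
  have := hUV.2.1
  exact (H61.iterCommutator_antitone Subgroup.le_normalizer_of_normal (by omega : i + j - 1 ≤ p - 1)).trans h

/-- The normalizer of the abelian Thompson subgroup controls transfer. -/
theorem inf_commutator_le (hp : 7 ≤ p) (S : Sylow p G) :
    (S : Subgroup G) ⊓ commutator G ≤
      ⁅normalizer (Cfsg.thompsonSubgroupAOf (S : Subgroup G) : Set G),
        normalizer (Cfsg.thompsonSubgroupAOf (S : Subgroup G) : Set G)⁆ := by
  have h := H61.trOK_of_engel (G := G) isCharPFunctor_thompsonA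
    (fun X _ _ _ _ T hn => exists_engel hp T hn) H61.sect_refl S
  refine le_trans (le_of_eq ?_) (h.trans (iSup₂_le fun W hW => ?_))
  · rw [commutator_def]
  · obtain ⟨W', hW', rfl⟩ := hW
    rw [Set.mem_singleton_iff] at hW'
    subst hW'
    refine inf_le_right.trans ?_
    rw [top_inf_eq]
    rfl

/-- The normalizer of the abelian Thompson subgroup controls the `p`-residual. -/
theorem pResidual_inf_normalizer (hp : 7 ≤ p) (S : Sylow p G) :
    Cfsg.pResidual p G ⊓ normalizer (Cfsg.thompsonSubgroupAOf (S : Subgroup G) : Set G) ≤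
      (Cfsg.pResidual p ↥(normalizer (Cfsg.thompsonSubgroupAOf (S : Subgroup G) : Set G))).map
        (normalizer (Cfsg.thompsonSubgroupAOf (S : Subgroup G) : Set G)).subtype := by
  classical
  have hpr : Fact p.Prime := inferInstance
  set N := normalizer (Cfsg.thompsonSubgroupAOf (S : Subgroup G) : Set G) with hN
  have hSN : (S : Subgroup G) ≤ N := H72.le_normalizer_thompsonSubgroupAOf _
  have ht : (S : Subgroup G) ⊓ Cfsg.pResidual p G ≤ (Cfsg.pResidual p N).map N.subtype := by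
    refine H22.tate S N hSN fun M hMn hMi => ?_
    haveI := hMn
    have hcard : Nat.card (N ⧸ M) = p := by rw [← index_eq_card, hMi]
    haveI : IsCyclic (N ⧸ M) := isCyclic_of_prime_card hcard
    letI : CommGroup (N ⧸ M) := IsCyclic.commGroup
    have hle : commutator N ≤ M := by
      have := Abelianization.commutator_subset_ker (QuotientGroup.mk' M)
      rwa [QuotientGroup.ker_mk'] at this
    refine (inf_commutator_le hp S).trans ?_
    rw [show ⁅N, N⁆ = (commutator N).map N.subtype by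
      rw [commutator_def, Subgroup.map_commutator, ← MonoidHom.range_eq_map, range_subtype]]
    exact Subgroup.map_mono hle
  rintro x ⟨hxK, hxN⟩
  obtain ⟨y, w, hy, hw, hyw, ⟨k, hk⟩, hwp⟩ :=
    H86.exists_pPart_mul_pPrimePart (⟨x, hxN⟩ : N) (isOfFinOrder_of_finite _) hpr.out
  refine ⟨⟨x, hxN⟩, ?_, rfl⟩
  rw [← hyw]
  refine mul_mem ?_ (H22.mem_pResidual_of_coprime hwp)
  have hyK : (y : G) ∈ Cfsg.pResidual p G := by
    obtain ⟨i, rfl⟩ := mem_zpowers_iff.1 hy
    rw [Subgroup.coe_zpow]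
    exact (Cfsg.pResidual p G).zpow_mem hxK i
  obtain ⟨R, hR⟩ := (IsPGroup.of_card (n := k) (by rw [Nat.card_zpowers, hk]) :
    IsPGroup p (zpowers y)).exists_le_sylow
  obtain ⟨m, hm⟩ := MulAction.exists_smul_eq N R (S.subtype hSN)
  have h1 : m * y * m⁻¹ ∈ ((m • R : Sylow p N) : Subgroup N) := ⟨y, hR (mem_zpowers y), rfl⟩
  rw [hm] at h1
  obtain ⟨v, hv, hve⟩ := ht ⟨h1, by
    simpa using (H22.pResidual_normal (G := G) (p := p)).conj_mem _ hyK m⟩
  have : v = m * y * m⁻¹ := Subtype.ext hve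
  rw [this] at hv
  have := (H22.pResidual_normal (G := N) (p := p)).conj_mem _ hv m⁻¹
  simpa [mul_assoc] using this

/-- The largest `p`-factor groups agree. -/
theorem nonempty_quotient_equiv (hp : 7 ≤ p) (S : Sylow p G) [(Cfsg.pResidual p G).Normal]
    [(Cfsg.pResidual p ↥(normalizer (Cfsg.thompsonSubgroupAOf (S : Subgroup G) : Set G))).Normal] :
    Nonempty (G ⧸ Cfsg.pResidual p G ≃*
      ↥(normalizer (Cfsg.thompsonSubgroupAOf (S : Subgroup G) : Set G)) ⧸
        Cfsg.pResidual p ↥(normalizer (Cfsg.thompsonSubgroupAOf (S : Subgroup G) : Set G))) := by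
  set N := normalizer (Cfsg.thompsonSubgroupAOf (S : Subgroup G) : Set G) with hN
  let φ : N →* G ⧸ Cfsg.pResidual p G := (QuotientGroup.mk' _).comp N.subtype
  have hsurj : Function.Surjective φ := by
    intro q
    obtain ⟨g, rfl⟩ := QuotientGroup.mk'_surjective _ q
    have hidx : ¬ p ∣ N.index := fun hd =>
      S.not_dvd_index (hd.trans (index_dvd_of_le (H72.le_normalizer_thompsonSubgroupAOf _)))
    obtain ⟨k, hk, x, hx, e⟩ := mem_sup_of_normal_left.1
      ((H22.pResidual_sup_eq_top_of_not_dvd_index N hidx).symm ▸ mem_top g :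
        g ∈ Cfsg.pResidual p G ⊔ N)
    refine ⟨⟨x, hx⟩, ?_⟩
    show (x : G ⧸ Cfsg.pResidual p G) = ((g : G) : G ⧸ Cfsg.pResidual p G)
    rw [← e, QuotientGroup.mk_mul, (QuotientGroup.eq_one_iff k).2 hk, one_mul]
  have hker : φ.ker = Cfsg.pResidual p N := by
    ext x
    constructor
    · intro hx
      obtain ⟨y, hy, hyx⟩ := pResidual_inf_normalizer hp S
        (show (x : G) ∈ Cfsg.pResidual p G ⊓ N from ⟨(QuotientGroup.eq_one_iff _).1 hx, x.2⟩)
      rwa [← Subtype.ext (a1 := y) (a2 := x) hyx]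
    · intro hx
      exact (QuotientGroup.eq_one_iff _).2 (H22.map_subtype_pResidual_le N ⟨x, hx, rfl⟩).1
  exact ⟨((QuotientGroup.quotientMulEquivOfEq hker).symm.trans
    (QuotientGroup.quotientKerEquivOfSurjective φ hsurj)).symm⟩

end Cfsg.Agent.H47.JTransfer
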