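import Mathlib
import Cfsg.Prelude.Def_PLocal
import Cfsg.Prelude.Def_LocalEven
import Cfsg.Agent.H72.ThompsonA

/-!
Tools for abelian subgroups of largest order of a `p`-subgroup `T`: the replacement bound,
commutator identities and iterated commutators.
-/

set_option autoImplicit false

namespace Cfsg.Agent.H47.JTransfer

open scoped commutatorElement
open Subgroup
open Cfsg.Agent.H72 (IsMaxAb)

universe u

variable {G : Type u} [Group G]

/-- Commutator with a product on the left. -/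
theorem comm_mul_left (a b c : G) : ⁅a * b, c⁆ = a * ⁅b, c⁆ * a⁻¹ * ⁅a, c⁆ := by
  simp [commutatorElement_def, mul_assoc]

/-- Commutator with a product on the right. -/
theorem comm_mul_right (a b c : G) : ⁅a, b * c⁆ = ⁅a, b⁆ * (b * ⁅a, c⁆ * b⁻¹) := by
  simp [commutatorElement_def, mul_assoc]

/-- Conjugates as commutators. -/
theorem conj_eq (a b : G) : a * b * a⁻¹ = ⁅a, b⁆ * b := by
  simp [commutatorElement_def, mul_assoc]

/-- A commuting element is fixed by conjugation. -/
theorem conj_of_commute {a b : G} (h : Commute a b) : a * b * a⁻¹ = b := by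
  rw [h.eq, mul_inv_cancel_right]

/-- An element fixed by conjugation commutes. -/
theorem commute_of_conj {a b : G} (h : a * b * a⁻¹ = b) : Commute a b :=
  mul_inv_eq_iff_eq_mul.1 h

/-- Commuting gives trivial commutator. -/
theorem comm_eq_one {a b : G} (h : Commute a b) : ⁅a, b⁆ = 1 :=
  commutatorElement_eq_one_iff_commute.2 h

/-- A commuting family generates a commuting subgroup. -/
theorem commute_closure {s : Set G} (hs : ∀ a ∈ s, ∀ b ∈ s, Commute a b) {a b : G}
    (ha : a ∈ closure s) (hb : b ∈ closure s) : Commute a b := by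
  have h1 : ∀ x ∈ closure s, ∀ c ∈ s, Commute x c := by
    intro x hx c hc
    induction hx using closure_induction with
    | mem x hx => exact hs x hx c hc
    | one => exact Commute.one_left c
    | mul x y _ _ h1 h2 => exact h1.mul_left h2
    | inv x _ h => exact h.inv_left
  induction hb using closure_induction with
  | mem c hc => exact h1 a ha c hc
  | one => exact Commute.one_right a
  | mul x y _ _ h1 h2 => exact h1.mul_right h2
  | inv x _ h => exact h.inv_right

/-- Elements commuting with two subgroups commute with their join. -/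
theorem commute_sup {A B : Subgroup G} {x : G} (hA : ∀ a ∈ A, Commute x a)
    (hB : ∀ b ∈ B, Commute x b) {y : G} (hy : y ∈ A ⊔ B) : Commute x y := by
  rw [sup_eq_closure] at hy
  induction hy using closure_induction with
  | mem a ha => exact ha.elim (hA a) (hB a)
  | one => exact Commute.one_right x
  | mul a b _ _ h1 h2 => exact h1.mul_right h2
  | inv a _ h => exact h.inv_right

/-- A join of commuting abelian subgroups is abelian. -/
theorem commute_sup_sup {A B : Subgroup G} (hA : ∀ a ∈ A, ∀ b ∈ A, Commute a b)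
    (hB : ∀ a ∈ B, ∀ b ∈ B, Commute a b) (hAB : ∀ a ∈ A, ∀ b ∈ B, Commute a b) :
    ∀ x ∈ A ⊔ B, ∀ y ∈ A ⊔ B, Commute x y := fun x hx y hy =>
  commute_sup (fun a ha => (commute_sup (fun a' ha' => hA a ha a' ha') (hAB a ha) hx).symm)
    (fun b hb => (commute_sup (fun a' ha' => (hAB a' ha' b hb).symm) (fun b' hb' => hB b hb b' hb') hx).symm)
    hy

/-- The members of a join of commuting subgroups are products. -/
theorem mem_sup_commute {A B : Subgroup G} (hAB : ∀ a ∈ A, ∀ b ∈ B, Commute a b) {x : G}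
    (hx : x ∈ A ⊔ B) : ∃ a ∈ A, ∃ b ∈ B, a * b = x := by
  rw [sup_eq_closure] at hx
  induction hx using closure_induction with
  | mem u hu =>
    rcases hu with h | h
    · exact ⟨u, h, 1, one_mem _, mul_one u⟩
    · exact ⟨1, one_mem _, u, h, one_mul u⟩
  | one => exact ⟨1, one_mem _, 1, one_mem _, mul_one 1⟩
  | inv u _ hu =>
    obtain ⟨a, ha, b, hb, rfl⟩ := hu
    refine ⟨a⁻¹, inv_mem ha, b⁻¹, inv_mem hb, ?_⟩
    rw [(hAB a ha b hb).eq, mul_inv_rev]
  | mul u v _ _ hu hv =>
    obtain ⟨a, ha, b, hb, rfl⟩ := hu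
    obtain ⟨a', ha', b', hb', rfl⟩ := hv
    refine ⟨a * a', mul_mem ha ha', b * b', mul_mem hb hb', ?_⟩
    calc a * a' * (b * b') = a * (a' * b) * b' := by group
      _ = a * (b * a') * b' := by rw [(hAB a' ha' b hb).eq]
      _ = a * b * (a' * b') := by group

variable [Finite G]

/-- The order of a join of commuting subgroups. -/
theorem card_sup_mul {A B : Subgroup G} (hAB : ∀ a ∈ A, ∀ b ∈ B, Commute a b) :
    Nat.card (A ⊔ B : Subgroup G) * Nat.card (A ⊓ B : Subgroup G) = Nat.card A * Nat.card B := by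
  let f : A × B →* G := A.subtype.noncommCoprod B.subtype fun a b => hAB a a.2 b b.2
  have hr : f.range = A ⊔ B := by
    exact (MonoidHom.noncommCoprod_range _ _ _).trans (by rw [range_subtype, range_subtype])
  let e : ↥(A ⊓ B : Subgroup G) → f.ker := fun x =>
    ⟨(⟨x, x.2.1⟩, ⟨(x : G)⁻¹, inv_mem x.2.2⟩), show (x : G) * (x : G)⁻¹ = 1 from mul_inv_cancel _⟩
  have he : Function.Bijective e := by
    constructor
    · intro x y h
      exact Subtype.ext (congrArg (fun k : f.ker => ((k : A × B).1 : G)) h)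
    · rintro ⟨⟨a, b⟩, hk⟩
      have hk' : (a : G) * (b : G) = 1 := hk
      have hab : (b : G) = (a : G)⁻¹ := eq_inv_of_mul_eq_one_right hk'
      refine ⟨⟨a, a.2, ?_⟩, ?_⟩
      · have := inv_mem b.2; rwa [hab, inv_inv] at this
      · exact Subtype.ext (Prod.ext rfl (Subtype.ext hab.symm))
  have h := (f.ker.card_mul_index).trans (Nat.card_prod A B)
  rw [index_ker, hr, ← Nat.card_congr (Equiv.ofBijective e he)] at h
  rw [← h, Nat.mul_comm]

/-- A map injective modulo `B` bounds the order. -/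
theorem card_le_of_map {A A' B : Subgroup G} (hBA : B ≤ A) (hBA' : B ≤ A') (f : G → G)
    (hf : ∀ a ∈ A, f a ∈ A') (hinj : ∀ a ∈ A, ∀ a' ∈ A, (f a)⁻¹ * f a' ∈ B → a⁻¹ * a' ∈ B) :
    Nat.card A ≤ Nat.card A' ∧
      (Nat.card A' ≤ Nat.card A → ∀ y ∈ A', ∃ a ∈ A, (f a)⁻¹ * y ∈ B) := by
  let r : A → A := fun a => (a : A ⧸ B.subgroupOf A).out
  have hr : ∀ a : A, (r a : G)⁻¹ * a ∈ B := fun a =>
    mem_subgroupOf.1 ((QuotientGroup.eq).1 (QuotientGroup.out_eq' (a : A ⧸ B.subgroupOf A)))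
  let φ : A → A' := fun a => ⟨f (r a) * ((r a : G)⁻¹ * a), mul_mem (hf _ (r a).2) (hBA' (hr a))⟩
  have hφ : Function.Injective φ := by
    intro a a' h
    have h' : f (r a) * ((r a : G)⁻¹ * a) = f (r a') * ((r a' : G)⁻¹ * a') := congrArg Subtype.val h
    have h1 : (f (r a))⁻¹ * f (r a') ∈ B := by
      have : (f (r a))⁻¹ * f (r a') = ((r a : G)⁻¹ * a) * ((r a' : G)⁻¹ * a')⁻¹ := by
        rw [inv_mul_eq_iff_eq_mul, ← mul_assoc, h']
        simp [mul_assoc]
      rw [this]
      exact mul_mem (hr a) (inv_mem (hr a'))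
    have h2 := hinj _ (r a).2 _ (r a').2 h1
    have h3 : (a : G)⁻¹ * a' ∈ B := by
      have : (a : G)⁻¹ * a' =
          ((r a : G)⁻¹ * a)⁻¹ * ((r a : G)⁻¹ * r a') * ((r a' : G)⁻¹ * a') := by group
      rw [this]
      exact mul_mem (mul_mem (inv_mem (hr a)) h2) (hr a')
    have h4 : (a : A ⧸ B.subgroupOf A) = (a' : A ⧸ B.subgroupOf A) :=
      QuotientGroup.eq.2 (mem_subgroupOf.2 h3)
    have h5 : r a = r a' := congrArg Quotient.out h4
    rw [h5] at h'
    exact Subtype.ext (mul_left_cancel (mul_left_cancel h'))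
  refine ⟨Nat.card_le_card_of_injective φ hφ, fun hle y hy => ?_⟩
  obtain ⟨a, ha⟩ := (hφ.bijective_of_nat_card_le hle).2 ⟨y, hy⟩
  refine ⟨r a, (r a).2, ?_⟩
  have ha' : f (r a) * ((r a : G)⁻¹ * a) = y := congrArg Subtype.val ha
  rw [← ha', inv_mul_cancel_left]
  exact hr a

/-- An abelian subgroup of largest order contains what centralizes it. -/
theorem mem_of_commute {T A : Subgroup G} (hA : IsMaxAb T A) {x : G} (hxT : x ∈ T)
    (h : ∀ a ∈ A, Commute x a) : x ∈ A := by
  have hc : ∀ u ∈ zpowers x, ∀ a ∈ A, Commute u a := by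
    rintro _ ⟨k, rfl⟩ a ha
    exact (h a ha).zpow_left k
  have hab := commute_sup_sup (A := zpowers x) (B := A)
    (by rintro _ ⟨i, rfl⟩ _ ⟨j, rfl⟩; exact (Commute.refl x).zpow_zpow i j) hA.2.1 hc
  have hle := hA.2.2 (zpowers x ⊔ A) (sup_le (zpowers_le.2 hxT) hA.1) hab
  rw [Subgroup.eq_of_le_of_card_ge (le_sup_right : A ≤ zpowers x ⊔ A) hle]
  exact le_sup_left (b := A) (mem_zpowers x)

/-- The replacement bound. -/
theorem replacement {T A S : Subgroup G} (hA : IsMaxAb T A) (hST : S ≤ T)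
    (hS : ∀ a ∈ S, ∀ b ∈ S, Commute a b) (f : G → G) (hf : ∀ a ∈ A, f a ∈ S)
    (hinj : ∀ a ∈ A, ∀ a' ∈ A, (f a)⁻¹ * f a' ∈ A →
      ∀ s ∈ S, Commute (a⁻¹ * a') s) :
    IsMaxAb T (S ⊔ (A ⊓ centralizer (S : Set G))) ∧
      ∀ s ∈ S, ∃ a ∈ A, (f a)⁻¹ * s ∈ A ⊓ centralizer (S : Set G) := by
  set B := A ⊓ centralizer (S : Set G) with hB
  have hSB : ∀ s ∈ S, ∀ b ∈ B, Commute s b := fun s hs b hb =>
    Subgroup.mem_centralizer_iff.1 hb.2 s hs
  have hab := commute_sup_sup (A := S) (B := B) hS (fun a ha b hb => hA.2.1 a ha.1 b hb.1) hSB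
  have hle : S ⊔ B ≤ T := sup_le hST (inf_le_left.trans hA.1)
  obtain ⟨h1, h2⟩ := card_le_of_map (A := A) (A' := S ⊔ B) (B := B) inf_le_left le_sup_right f
    (fun a ha => le_sup_left (b := B) (hf a ha)) fun a ha a' ha' h =>
      mem_inf.2 ⟨A.mul_mem (A.inv_mem ha) ha', Subgroup.mem_centralizer_iff.2 fun s hs =>
        ((hinj a ha a' ha' h.1 s hs).eq).symm⟩
  have heq := hA.2.2 _ hle hab
  exact ⟨⟨hle, hab, fun C hC hCc => (hA.2.2 C hC hCc).trans h1⟩,
    fun s hs => h2 heq s (le_sup_left (b := B) hs)⟩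

/-- Iterated commutators inside a `p`-subgroup vanish. -/
theorem exists_iter_eq_bot {p : ℕ} [Fact p.Prime] {T U A : Subgroup G} (hT : IsPGroup p T)
    (hU : U ≤ T) (hA : A ≤ T) : ∃ k, Cfsg.iterCommutator U A k = ⊥ := by
  have hle : ∀ k, Cfsg.iterCommutator U A k ≤
      ((⊤ : Subgroup T).lowerCentralSeries k).map T.subtype := by
    intro k
    induction k with
    | zero =>
      rw [Subgroup.lowerCentralSeries_zero, ← MonoidHom.range_eq_map, range_subtype]
      exact hU
    | succ k ih =>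
      rw [Subgroup.lowerCentralSeries_succ, map_commutator, ← MonoidHom.range_eq_map, range_subtype]
      exact commutator_mono ih hA
  obtain ⟨n, hn⟩ := Subgroup.nilpotent_iff_lowerCentralSeries.1 hT.isNilpotent
  exact ⟨n, le_bot_iff.1 ((hle n).trans (by rw [hn, Subgroup.map_bot]))⟩

/-- The elements whose `m`-fold commutators with `A` lie in `Y`. -/
def Fold (A Y : Subgroup G) : ℕ → G → Prop
  | 0, c => c ∈ Y
  | m + 1, c => ∀ a ∈ A, Fold A Y m ⁅c, a⁆

omit [Finite G] in
/-- Iterated commutators from a bound on elements, when `U / Y` is abelian. -/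
theorem iter_le_of_fold {U A Y : Subgroup G} (hAU : ⁅U, A⁆ ≤ U) (hYU : Y ≤ U)
    (hAY : ⁅Y, A⁆ ≤ Y) (hUU : ⁅U, U⁆ ≤ Y) (k : ℕ) (h : ∀ c ∈ U, Fold A Y k c) :
    Cfsg.iterCommutator U A k ≤ Y := by
  have hY : ∀ m c, c ∈ Y → Fold A Y m c := by
    intro m
    induction m with
    | zero => exact fun c hc => hc
    | succ m ih => exact fun c hc a ha => ih _ (hAY (commutator_mem_commutator hc ha))
  have hUa : ∀ c ∈ U, ∀ a ∈ A, ⁅c, a⁆ ∈ U := fun c hc a ha =>
    hAU (commutator_mem_commutator hc ha)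
  have hmul : ∀ m, ∀ c ∈ U, ∀ c' ∈ U, Fold A Y m c → Fold A Y m c' → Fold A Y m (c * c') := by
    intro m
    induction m with
    | zero => exact fun c _ c' _ h1 h2 => Y.mul_mem h1 h2
    | succ m ih =>
      intro c hc c' hc' h1 h2 a ha
      show Fold A Y m ⁅c * c', a⁆
      rw [comm_mul_left, conj_eq]
      exact ih _ (mul_mem (hYU (hUU (commutator_mem_commutator hc (hUa c' hc' a ha)))) (hUa c' hc' a ha))
        _ (hUa c hc a ha)
        (ih _ (hYU (hUU (commutator_mem_commutator hc (hUa c' hc' a ha)))) _ (hUa c' hc' a ha)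
          (hY m _ (hUU (commutator_mem_commutator hc (hUa c' hc' a ha)))) (h2 a ha))
        (h1 a ha)
  have hinv : ∀ m, ∀ c ∈ U, Fold A Y m c → Fold A Y m c⁻¹ := by
    intro m
    induction m with
    | zero => exact fun c _ h1 => Y.inv_mem h1
    | succ m ih =>
      intro c hc h1 a ha
      show Fold A Y m ⁅c⁻¹, a⁆
      rw [show ⁅c⁻¹, a⁆ = c⁻¹ * ⁅c, a⁆⁻¹ * c⁻¹⁻¹ by simp [commutatorElement_def, mul_assoc], conj_eq]
      have hi := inv_mem (hUa c hc a ha)
      exact hmul m _ (hYU (hUU (commutator_mem_commutator (inv_mem hc) hi))) _ hi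
        (hY m _ (hUU (commutator_mem_commutator (inv_mem hc) hi))) (ih _ (hUa c hc a ha) (h1 a ha))
  have main : ∀ j m, j + m = k → ∀ c ∈ Cfsg.iterCommutator U A j, c ∈ U ∧ Fold A Y m c := by
    intro j
    induction j with
    | zero =>
      intro m hm c hc
      exact ⟨hc, by rw [show m = k by omega]; exact h c hc⟩
    | succ j ih =>
      intro m hm c hc
      let K : Subgroup G := {
        carrier := {c | c ∈ U ∧ Fold A Y m c}
        one_mem' := ⟨one_mem _, hY m 1 Y.one_mem⟩
        mul_mem' := by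
          rintro a b ⟨ha, ha'⟩ ⟨hb, hb'⟩
          exact ⟨mul_mem ha hb, hmul m a ha b hb ha' hb'⟩
        inv_mem' := by
          rintro a ⟨ha, ha'⟩
          exact ⟨inv_mem ha, hinv m a ha ha'⟩ }
      have hK : Cfsg.iterCommutator U A (j + 1) ≤ K := commutator_le.2 fun x hx a ha =>
        ⟨hUa x (ih (m + 1) (by omega) x hx).1 a ha, (ih (m + 1) (by omega) x hx).2 a ha⟩
      exact hK hc
  exact fun c hc => (main k 0 rfl c hc).2

omit [Finite G] in
/-- Iterated commutators are monotone in both arguments. -/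
theorem iter_mono {U U' A A' : Subgroup G} (hU : U ≤ U') (hA : A ≤ A') :
    ∀ k, Cfsg.iterCommutator U A k ≤ Cfsg.iterCommutator U' A' k
  | 0 => hU
  | k + 1 => commutator_mono (iter_mono hU hA k) hA

end Cfsg.Agent.H47.JTransfer
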